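import Cfsg.Agent.H18.PClosed
import Cfsg.Agent.H67.Radical
import Cfsg.Agent.S0496

import Cfsg.Agent.Asch.PaQb

set_option autoImplicit false
open Cfsg

/-! Nonsolvable nonsimple groups of order 360. -/

namespace Cfsg.Agent.H18N.N360a

open Subgroup
open scoped commutatorElement

/-- groups of order dividing 6 are solvable. -/
theorem solv_six {G : Type*} [Group G] [Finite G] (h : Nat.card G ∣ 6) : Group.IsSolvable G := by
  have h1 : Nat.card G ≤ 6 := Nat.le_of_dvd (by norm_num) h
  have h0 : 0 < Nat.card G := Nat.card_pos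
  have h2 : Nat.card G = 2 ^ 0 * 3 ^ 0 ∨ Nat.card G = 2 ^ 1 * 3 ^ 0 ∨ Nat.card G = 2 ^ 0 * 3 ^ 1 ∨
      Nat.card G = 2 ^ 1 * 3 ^ 1 := by
    generalize Nat.card G = n at *
    interval_cases n <;> simp_all <;> omega
  rcases h2 with h2 | h2 | h2 | h2 <;>
    exact Cfsg.Agent.Asch.PaQb.isSolvable 2 3 _ _ Nat.prime_two Nat.prime_three h2

/-- the radical of the quotient by the radical is trivial. -/
theorem rad_quot (G : Type*) [Group G] [Finite G] (R : Subgroup G) [hRn : R.Normal]
    (hR : R = solvableRadical G) (M : Subgroup (G ⧸ R)) (hM : M.Normal) (hs : Group.IsSolvable M) :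
    M = ⊥ := by
  have hRs : Group.IsSolvable R := by rw [hR]; exact H67.solvableRadical_isSolvable G
  have h1 : (M.comap (QuotientGroup.mk' R)).Normal := hM.comap _
  have h2 : Group.IsSolvable (M.comap (QuotientGroup.mk' R)) := by
    let f : M.comap (QuotientGroup.mk' R) →* M := (QuotientGroup.mk' R).subgroupComap M
    have hle : R ≤ M.comap (QuotientGroup.mk' R) := by
      intro x hx
      rw [Subgroup.mem_comap, QuotientGroup.mk'_apply, (QuotientGroup.eq_one_iff x).2 hx]
      exact one_mem _
    refine Group.isSolvable_of_ker_le_range (f := Subgroup.inclusion hle) (g := f) ?_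
    rintro ⟨x, hx⟩ hk
    have h3 : (QuotientGroup.mk' R) x = 1 := congrArg Subtype.val hk
    have h4 : x ∈ R := (QuotientGroup.eq_one_iff x).1 h3
    exact ⟨⟨x, h4⟩, rfl⟩
  have h3 := H67.le_solvableRadical h1 h2
  rw [← hR] at h3
  rw [← Subgroup.map_comap_eq_self_of_surjective (QuotientGroup.mk'_surjective R) M, Subgroup.map_eq_bot_iff,
    QuotientGroup.ker_mk']
  exact h3

/-- the simple normal subgroup of order 60. -/
theorem exists_N {H : Type*} [Group H] [Finite H] [Nontrivial H] (hd : Nat.card H ∣ 360)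
    (hrad : ∀ M : Subgroup H, M.Normal → Group.IsSolvable M → M = ⊥)
    (hns : Nat.card H = 360 → ¬ IsSimpleGroup H) :
    ∃ N : Subgroup H, N.Normal ∧ Nat.card N = 60 ∧ IsSimpleGroup N ∧ ¬ IsMulCommutative N ∧
      centralizer (N : Set H) = ⊥ := by
  classical
  obtain ⟨M, hMn, -, hM1, hmin⟩ := Solv.exists_minimal_normal (⊤ : Subgroup H) inferInstance top_ne_bot
  have hMs : ¬ Group.IsSolvable M := fun h => hM1 (hrad M hMn h)
  have hMnt : Nontrivial M := (Subgroup.nontrivial_iff_ne_bot M).2 hM1
  -- every characteristic subgroup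
  have hchar : ∀ K : Subgroup M, K.Characteristic → K = ⊥ ∨ K = ⊤ := by
    intro K hK
    have h1 : (K.map M.subtype).Normal := ConjAct.normal_of_characteristic_of_normal
    rcases hmin _ h1 (map_subtype_le K) with h2 | h2
    · left
      rwa [Subgroup.map_eq_bot_iff_of_injective _ M.subtype_injective] at h2
    · right
      apply Subgroup.map_injective M.subtype_injective
      rw [h2, ← MonoidHom.range_eq_map, Subgroup.range_subtype]
  obtain ⟨K, hKn, hKt, hKs⟩ := Cfsg.Agent.H18.PCl.exists_maxNormal M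
  have hdM : Nat.card M ∣ 360 := (Subgroup.card_subgroup_dvd_card M).trans hd
  have hcM : Nat.card M = Nat.card (M ⧸ K) * Nat.card K := Subgroup.card_eq_card_quotient_mul_card_subgroup K
  -- not commutative
  have hnc : ¬ IsMulCommutative (M ⧸ K) := by
    intro hc
    have h1 : commutator M ≤ K := by
      rw [commutator_def, Subgroup.commutator_le]
      intro a _ b _
      have h0 : (QuotientGroup.mk' K) ⁅a, b⁆ = 1 := by
        rw [map_commutatorElement, commutatorElement_eq_one_iff_mul_comm]
        exact hc.is_comm.comm _ _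
      exact (QuotientGroup.eq_one_iff _).1 h0
    rcases hchar (commutator M) inferInstance with h2 | h2
    · apply hMs
      have h3 : ∀ a b : M, a * b = b * a := by
        intro a b
        have h4 : ⁅a, b⁆ ∈ commutator M := Subgroup.commutator_mem_commutator (mem_top a) (mem_top b)
        rw [h2, mem_bot, commutatorElement_eq_one_iff_mul_comm] at h4
        exact h4
      exact Group.isSolvable_of_comm h3
    · rw [h2, top_le_iff] at h1
      exact hKt h1
  have hdQ : Nat.card (M ⧸ K) ∣ 360 := (Subgroup.card_quotient_dvd_card K).trans hdM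
  have hle : Nat.card (M ⧸ K) ≤ 360 := Nat.le_of_dvd (by norm_num) hdQ
  have hK0 : 0 < Nat.card K := Nat.card_pos
  have hQ60 : Nat.card (M ⧸ K) = 60 := by
    rcases S0496.result (G := M ⧸ K) hnc (by omega) with h | h | h | h | h | h
    · exact h
    · rw [h] at hdQ; norm_num at hdQ
    · exfalso
      have h1 : Nat.card M ≤ 360 := Nat.le_of_dvd (by norm_num) hdM
      have h2 : Nat.card K = 1 := by rw [h] at hcM; nlinarith
      have h3 : Nat.card M = 360 := by rw [hcM, h, h2]
      have h4 : Nat.card H = 360 := by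
        have h5 : Nat.card M ≤ Nat.card H := Subgroup.card_le_card_group M
        have h6 : Nat.card H ≤ 360 := Nat.le_of_dvd (by norm_num) hd
        omega
      have h5 : M = ⊤ := Subgroup.eq_top_of_card_eq M (by rw [h3, h4])
      have h6 : K = ⊥ := Subgroup.card_eq_one.1 h2
      apply hns h4
      have h7 : IsSimpleGroup M := by
        subst h6
        exact IsSimpleGroup.isSimpleGroup_of_surjective (QuotientGroup.quotientBot (G := M)).toMonoidHom
          (QuotientGroup.quotientBot (G := M)).surjective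
      subst h5
      exact IsSimpleGroup.isSimpleGroup_of_surjective (Subgroup.topEquiv (G := H)).toMonoidHom
        (Subgroup.topEquiv (G := H)).surjective
    · omega
    · omega
    · omega
  have hK6 : Nat.card K ∣ 6 := by
    have h1 : 60 * Nat.card K ∣ 60 * 6 := by rw [← hQ60, ← hcM]; rw [hQ60]; exact hdM
    exact (Nat.mul_dvd_mul_iff_left (by norm_num)).1 h1
  have hKsol : Group.IsSolvable K := solv_six hK6
  have hKbot : K = ⊥ := by
    have h1 : K ≤ solvableRadical M := H67.le_solvableRadical hKn hKsol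
    have h2 : (solvableRadical M).Characteristic := H67.solvableRadical_characteristic M
    rcases hchar _ h2 with h3 | h3
    · rw [h3] at h1; exact le_bot_iff.1 h1
    · exfalso
      apply hMs
      have h4 := H67.solvableRadical_isSolvable M
      rw [h3] at h4
      exact Group.isSolvable_of_surjective (f := (Subgroup.topEquiv (G := M)).toMonoidHom)
        (Subgroup.topEquiv (G := M)).surjective
  subst hKbot
  have hM60 : Nat.card M = 60 := by rw [hcM, hQ60, Subgroup.card_bot]
  have hMsimple : IsSimpleGroup M :=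
    IsSimpleGroup.isSimpleGroup_of_surjective (QuotientGroup.quotientBot (G := M)).toMonoidHom
      (QuotientGroup.quotientBot (G := M)).surjective
  have hMnc : ¬ IsMulCommutative M := by
    intro hc
    exact hMs (Group.isSolvable_of_comm (fun a b => hc.is_comm.comm a b))
  refine ⟨M, hMn, hM60, hMsimple, hMnc, ?_⟩
  have hCn : (centralizer (M : Set H)).Normal := inferInstance
  have hinf : M ⊓ centralizer (M : Set H) = ⊥ := by
    have h1 : (M ⊓ centralizer (M : Set H)).Normal := inferInstance
    rcases hmin _ h1 inf_le_left with h2 | h2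
    · exact h2
    · exfalso
      apply hMnc
      have h3 : M ≤ centralizer (M : Set H) := inf_eq_left.1 h2
      refine ⟨⟨fun a b => Subtype.ext ?_⟩⟩
      exact (mem_centralizer_iff.1 (h3 b.2)) a a.2
  have h1 := Solv.mul_card_sup_of_normal M (centralizer (M : Set H))
  rw [hinf, Subgroup.card_bot, mul_one] at h1
  have h2 : Nat.card (M ⊔ centralizer (M : Set H) : Subgroup H) ∣ 360 :=
    (Subgroup.card_subgroup_dvd_card _).trans hd
  rw [h1, hM60] at h2
  have h3 : Nat.card (centralizer (M : Set H)) ∣ 6 :=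
    (Nat.mul_dvd_mul_iff_left (a := 60) (by norm_num)).1 (by simpa using h2)
  exact hrad _ hCn (solv_six h3)

/-- no 9. -/
theorem no_nine {H : Type*} [Group H] [Finite H] (hd : Nat.card H ∣ 360) (N : Subgroup H) [hN : N.Normal]
    (h60 : Nat.card N = 60) (hs : IsSimpleGroup N) (hnc : ¬ IsMulCommutative N)
    (hC : centralizer (N : Set H) = ⊥) : ¬ 9 ∣ Nat.card H := by
  classical
  intro h9
  haveI : Fact (Nat.Prime 5) := ⟨by norm_num⟩
  haveI : Fact (Nat.Prime 3) := ⟨by norm_num⟩
  have hNH : 60 ∣ Nat.card H := h60 ▸ Subgroup.card_subgroup_dvd_card N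
  have h180 : 180 ∣ Nat.card H := by
    have : Nat.lcm 60 9 ∣ Nat.card H := Nat.lcm_dvd hNH h9
    exact this
  have h25 : ¬ 25 ∣ Nat.card H := fun h => by
    have := h.trans hd
    norm_num at this
  obtain ⟨Q⟩ : Nonempty (Sylow 5 H) := inferInstance
  have hQc : Nat.card Q = 5 := by
    rw [Q.card_eq_multiplicity]
    have h1 : (Nat.card H).factorization 5 = 1 := by
      have h2 : 1 ≤ (Nat.card H).factorization 5 :=
        (Nat.Prime.dvd_iff_one_le_factorization (by norm_num) Nat.card_pos.ne').1 (Dvd.dvd.trans (by norm_num) hNH)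
      have h3 : (Nat.card H).factorization 5 < 2 := by
        by_contra hcon
        push Not at hcon
        exact h25 (((by norm_num : Nat.Prime 5).pow_dvd_iff_le_factorization Nat.card_pos.ne').2 hcon)
      omega
    rw [h1, pow_one]
  -- `Q ≤ N`
  have hQN : (Q : Subgroup H) ≤ N := by
    have h3 : IsPGroup 5 ((Q : Subgroup H).map (QuotientGroup.mk' N)) := Q.isPGroup'.map _
    rcases h3.card_eq_or_dvd with h4 | h4
    · rw [Subgroup.card_eq_one, Subgroup.map_eq_bot_iff, QuotientGroup.ker_mk'] at h4
      exact h4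
    · exfalso
      have h5 : 5 ∣ Nat.card (H ⧸ N) := h4.trans (Subgroup.card_subgroup_dvd_card _)
      apply h25
      rw [Subgroup.card_eq_card_quotient_mul_card_subgroup N, h60]
      exact mul_dvd_mul (a := 5) (c := 5) h5 (by norm_num)
  -- `Q` not normalised by `N`
  have hQnn : ¬ N ≤ normalizer ((Q : Subgroup H) : Set H) := by
    intro hle
    have h1 : ((Q : Subgroup H).subgroupOf N).Normal := by
      refine ⟨fun a ha g => ?_⟩
      rw [mem_subgroupOf] at ha ⊢
      have := (mem_normalizer_iff.1 (hle g.2) a).1 ha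
      simpa using this
    rcases hs.eq_bot_or_eq_top_of_normal _ h1 with h2 | h2
    · rw [subgroupOf_eq_bot] at h2
      have h3 : (Q : Subgroup H) = ⊥ := by
        rw [disjoint_iff, inf_eq_left.2 hQN] at h2
        exact h2
      have h4 : Nat.card (Q : Subgroup H) = 1 := by rw [h3, Subgroup.card_bot]
      have h5 : Nat.card (Q : Subgroup H) = 5 := hQc
      omega
    · rw [subgroupOf_eq_top] at h2
      have h3 : Nat.card N ∣ Nat.card (Q : Subgroup H) := Subgroup.card_dvd_of_le h2
      have h5 : Nat.card (Q : Subgroup H) = 5 := hQc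
      rw [h60, h5] at h3
      norm_num at h3
  -- Frattini
  have hfrat : N ⊔ normalizer ((Q : Subgroup H) : Set H) = ⊤ := by
    have h1 := Sylow.normalizer_sup_eq_top (Q.subtype hQN)
    have h4 : ((Q.subtype hQN : Sylow 5 N) : Subgroup N).map N.subtype = Q := by
      rw [Sylow.coe_subtype, Subgroup.subgroupOf_map_subtype, inf_eq_left.2 hQN]
    rw [h4] at h1
    rw [sup_comm]; exact h1
  have hind := Solv.index_mul_card_inf_eq_card_of_sup_eq_top N (normalizer ((Q : Subgroup H) : Set H)) hfrat
  rw [h60] at hind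
  have hn5 : Nat.card (Sylow 5 H) = (normalizer ((Q : Subgroup H) : Set H)).index := Q.card_eq_index_normalizer
  have hn5d : Nat.card (Sylow 5 H) ∣ 60 := by rw [hn5]; exact Dvd.intro _ hind
  have hn5m : Nat.card (Sylow 5 H) ≡ 1 [MOD 5] := card_sylow_modEq_one 5 H
  have hn51 : Nat.card (Sylow 5 H) ≠ 1 := by
    intro h
    rw [hn5, index_eq_one] at h
    exact hQnn (by rw [h]; exact le_top)
  have hn56 : Nat.card (Sylow 5 H) = 6 := by
    have hle : Nat.card (Sylow 5 H) ≤ 60 := Nat.le_of_dvd (by norm_num) hn5d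
    generalize Nat.card (Sylow 5 H) = n at *
    have h1 : n % 5 = 1 := hn5m
    interval_cases n <;> omega
  -- an element of order 3 of the normaliser
  have h3N : 3 ∣ Nat.card (normalizer ((Q : Subgroup H) : Set H)) := by
    have h1 := Subgroup.card_mul_index (normalizer ((Q : Subgroup H) : Set H))
    rw [← hn5, hn56] at h1
    obtain ⟨k, hk⟩ := h180
    have : Nat.card (normalizer ((Q : Subgroup H) : Set H)) = 30 * k := by omega
    rw [this]; exact Dvd.intro (10 * k) (by ring)
  obtain ⟨x', hx'⟩ := exists_prime_orderOf_dvd_card' 3 h3N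
  set x : H := x'.1 with hx
  have hxo : orderOf x = 3 := by rw [hx, Subgroup.orderOf_coe, hx']
  have hxn : x ∈ normalizer ((Q : Subgroup H) : Set H) := x'.2
  have hX3 : IsPGroup 3 (zpowers x) := IsPGroup.of_card (n := 1) (by rw [Nat.card_zpowers, hxo, pow_one])
  have hxC : (Q : Subgroup H) ≤ centralizer ((zpowers x : Subgroup H) : Set H) := by
    have h1 := Cfsg.Agent.H18.PCl.card_inf_centralizer (p := 3) (zpowers x) (Q : Subgroup H) hX3 (by
      intro g hg y hy
      have : g ∈ normalizer ((Q : Subgroup H) : Set H) := (zpowers_le.2 hxn) hg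
      exact (mem_normalizer_iff.1 this y).1 hy)
    have h2 : Nat.card ((Q : Subgroup H) ⊓ centralizer ((zpowers x : Subgroup H) : Set H) : Subgroup H) ∣ 5 := by
      have := Subgroup.card_dvd_of_le (inf_le_left : (Q : Subgroup H) ⊓ centralizer ((zpowers x : Subgroup H) : Set H) ≤ Q)
      rwa [show Nat.card (Q : Subgroup H) = 5 from hQc] at this
    rw [show Nat.card (Q : Subgroup H) = 5 from hQc] at h1
    rcases (Nat.dvd_prime (by norm_num)).1 h2 with h3 | h3
    · rw [h3] at h1
      exact absurd h1 (by decide)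
    · exact inf_eq_left.1 (eq_of_le_of_card_ge inf_le_left (by rw [h3]; exact hQc.le))
  have hcomm : ∀ y ∈ (Q : Subgroup H), x * y = y * x := by
    intro y hy
    exact (mem_centralizer_iff.1 (hxC hy)) x (mem_zpowers x)
  -- fixed points
  have hfixQ : x • Q = Q := by
    rw [Sylow.smul_eq_iff_mem_normalizer]; exact hxn
  have hF := hX3.card_modEq_card_fixedPoints (Sylow 5 H)
  rw [hn56] at hF
  have hmemF : ∀ S : Sylow 5 H, S ∈ MulAction.fixedPoints (zpowers x) (Sylow 5 H) ↔ x • S = S := by
    intro S
    constructor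
    · intro h
      exact h ⟨x, mem_zpowers x⟩
    · rintro h ⟨g, hg⟩
      obtain ⟨k, rfl⟩ := mem_zpowers_iff.1 hg
      have h1 : x ∈ MulAction.stabilizer H S := h
      exact (zpow_mem h1 k : x ^ k ∈ MulAction.stabilizer H S)
  obtain ⟨Q2, hQ2, hQ2Q⟩ : ∃ Q2 : Sylow 5 H, x • Q2 = Q2 ∧ Q2 ≠ Q := by
    by_contra hcon
    push Not at hcon
    have h1 : MulAction.fixedPoints (zpowers x) (Sylow 5 H) = {Q} := by
      ext S
      rw [hmemF, Set.mem_singleton_iff]
      constructor
      · exact hcon S
      · rintro rfl; exact hfixQ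
    rw [h1] at hF
    simp at hF
    exact absurd hF (by decide)
  -- all Sylow subgroups are fixed
  have hall : ∀ S : Sylow 5 H, x • S = S := by
    have horb : Nat.card (MulAction.orbit (Q : Subgroup H) Q2) = 5 := by
      have h0 : Nat.card (MulAction.orbit (Q : Subgroup H) Q2) = (MulAction.stabilizer (Q : Subgroup H) Q2).index :=
        Nat.card_congr (MulAction.orbitEquivQuotientStabilizer (Q : Subgroup H) Q2)
      have h1 : Nat.card (MulAction.orbit (Q : Subgroup H) Q2) ∣ 5 := by
        rw [h0]
        exact (Subgroup.index_dvd_card _).trans (dvd_of_eq hQc)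
      rcases (Nat.dvd_prime (by norm_num)).1 h1 with h2 | h2
      · exfalso
        have h3 : Subsingleton (MulAction.orbit (Q : Subgroup H) Q2) := (Nat.card_eq_one_iff_unique.1 h2).1
        have h4 : (Q : Subgroup H) ≤ normalizer ((Q2 : Subgroup H) : Set H) := by
          intro y hy
          refine Sylow.smul_eq_iff_mem_normalizer.1 ?_
          have h5 := h3.elim ⟨(⟨y, hy⟩ : (Q : Subgroup H)) • Q2, ⟨⟨y, hy⟩, rfl⟩⟩ ⟨Q2, MulAction.mem_orbit_self Q2⟩
          exact congrArg Subtype.val h5
        have h5 : (Q : Subgroup H) ⊓ normalizer ((Q2 : Subgroup H) : Set H) = (Q : Subgroup H) ⊓ Q2 :=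
          IsPGroup.inf_normalizer_sylow Q.isPGroup' Q2
        rw [inf_eq_left.2 h4] at h5
        have h6 : (Q : Subgroup H) ≤ Q2 := inf_eq_left.1 h5.symm
        exact hQ2Q (Sylow.ext (Q.is_maximal' Q2.isPGroup' h6))
      · exact h2
    have hsub : ∀ S ∈ MulAction.orbit (Q : Subgroup H) Q2, x • S = S := by
      rintro S ⟨y, rfl⟩
      show x • ((y : H) • Q2) = (y : H) • Q2
      rw [← mul_smul, hcomm y y.2, mul_smul, hQ2]
    have hnot : Q ∉ MulAction.orbit (Q : Subgroup H) Q2 := by
      rintro ⟨y, hy⟩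
      have hy' : (y : H) • Q2 = Q := hy
      have h1 : (y : H) • Q = Q := Sylow.smul_eq_iff_mem_normalizer.2 (le_normalizer y.2)
      exact hQ2Q (smul_left_cancel (y : H) (hy'.trans h1.symm))
    have hT : insert Q (MulAction.orbit (Q : Subgroup H) Q2) = Set.univ := by
      apply Set.eq_of_subset_of_ncard_le (Set.subset_univ _)
      rw [Set.ncard_univ, hn56, Set.ncard_insert_of_notMem hnot (Set.toFinite _)]
      have h5 : (MulAction.orbit (Q : Subgroup H) Q2).ncard = 5 := horb
      omega
    intro S
    have hS : S ∈ insert Q (MulAction.orbit (Q : Subgroup H) Q2) := hT ▸ Set.mem_univ S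
    rcases hS with hS | hS
    · rw [hS]; exact hfixQ
    · exact hsub S hS
  have hK : x ∈ (MulAction.toPermHom H (Sylow 5 H)).ker := by
    rw [MonoidHom.mem_ker]
    exact Equiv.ext (fun S => hall S)
  have hKN : N ⊓ (MulAction.toPermHom H (Sylow 5 H)).ker = ⊥ := by
    have hn : ((MulAction.toPermHom H (Sylow 5 H)).ker.subgroupOf N).Normal := inferInstance
    rcases hs.eq_bot_or_eq_top_of_normal _ hn with h2 | h2
    · rw [subgroupOf_eq_bot, disjoint_iff] at h2
      rw [inf_comm]; exact h2
    · exfalso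
      rw [subgroupOf_eq_top] at h2
      apply hQnn
      intro n hn
      refine Sylow.smul_eq_iff_mem_normalizer.1 ?_
      have h3 := h2 hn
      rw [MonoidHom.mem_ker] at h3
      exact congrArg (fun e : Equiv.Perm (Sylow 5 H) => e Q) h3
  have hKC : (MulAction.toPermHom H (Sylow 5 H)).ker ≤ centralizer (N : Set H) := by
    intro k hk
    rw [mem_centralizer_iff]
    intro n hn
    exact Subgroup.commute_of_normal_of_disjoint N _ inferInstance inferInstance (disjoint_iff.2 hKN) n k hn hk
  have := hKC hK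
  rw [hC, mem_bot] at this
  rw [this, orderOf_one] at hxo
  norm_num at hxo

theorem n360a {G : Type*} [Group G] [Finite G] (hcard : Nat.card G = 360) (hns : ¬ IsSimpleGroup G)
    (hsol : ¬ Group.IsSolvable G) :
    ∃ R : Subgroup G, ∃ _ : R.Normal,
      (Nat.card R = 6 ∧ IsSimpleGroup (G ⧸ R) ∧ ¬ IsMulCommutative (G ⧸ R)) ∨
      (Nat.card R = 3 ∧ ∃ N : Subgroup (G ⧸ R), N.Normal ∧ Nat.card N = 60 ∧ IsSimpleGroup N ∧
        Subgroup.centralizer (N : Set (G ⧸ R)) = ⊥) := by
  classical
  have hRn : (solvableRadical G).Normal := H67.solvableRadical_normal G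
  obtain ⟨R, hR⟩ : ∃ R, R = solvableRadical G := ⟨_, rfl⟩
  rw [← hR] at hRn
  have hRs : Group.IsSolvable R := by rw [hR]; exact H67.solvableRadical_isSolvable G
  have hRt : R ≠ ⊤ := by
    intro h
    apply hsol
    rw [h] at hRs
    exact Group.isSolvable_of_surjective (f := (Subgroup.topEquiv (G := G)).toMonoidHom)
      (Subgroup.topEquiv (G := G)).surjective
  have hnt : Nontrivial (G ⧸ R) := QuotientGroup.nontrivial_iff.2 hRt
  have hntG : Nontrivial G := Finite.one_lt_card_iff_nontrivial.1 (by rw [hcard]; norm_num)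
  have hc : Nat.card G = Nat.card (G ⧸ R) * Nat.card R := Subgroup.card_eq_card_quotient_mul_card_subgroup R
  have hd : Nat.card (G ⧸ R) ∣ 360 := by rw [← hcard]; exact Dvd.intro _ hc.symm
  obtain ⟨N, hNn, hN60, hNs, hNnc, hNC⟩ := exists_N (H := G ⧸ R) hd (fun M hM hs => rad_quot G R hR M hM hs) (by
    intro h1 h2
    apply hns
    have h3 : Nat.card R = 1 := by rw [hcard, h1] at hc; omega
    have h4 : R = ⊥ := Subgroup.card_eq_one.1 h3
    clear hR
    subst h4
    exact IsSimpleGroup.isSimpleGroup_of_surjective (QuotientGroup.quotientBot (G := G)).toMonoidHom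
      (QuotientGroup.quotientBot (G := G)).surjective)
  have h9 := no_nine hd N hN60 hNs hNnc hNC
  have h60 : 60 ∣ Nat.card (G ⧸ R) := hN60 ▸ Subgroup.card_subgroup_dvd_card N
  rw [hcard] at hc
  obtain ⟨k, hk⟩ := h60
  have hk6 : k ∣ 6 := by
    rw [hk] at hd
    exact (Nat.mul_dvd_mul_iff_left (a := 60) (by norm_num)).1 hd
  have hk' : k = 1 ∨ k = 2 ∨ k = 3 ∨ k = 6 := by
    have h1 : k ≤ 6 := Nat.le_of_dvd (by norm_num) hk6
    interval_cases k <;> simp_all
  refine ⟨R, hRn, ?_⟩
  rcases hk' with rfl | rfl | rfl | rfl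
  · left
    have h2 : Nat.card (G ⧸ R) = 60 := by omega
    have h1 : N = ⊤ := Subgroup.eq_top_of_card_eq N (by rw [hN60, h2])
    subst h1
    refine ⟨by rw [h2] at hc; omega, ?_, ?_⟩
    · exact IsSimpleGroup.isSimpleGroup_of_surjective (Subgroup.topEquiv (G := G ⧸ R)).toMonoidHom
        (Subgroup.topEquiv (G := G ⧸ R)).surjective
    · intro hcm
      apply hNnc
      exact ⟨⟨fun a b => Subtype.ext (hcm.is_comm.comm _ _)⟩⟩
  · right
    refine ⟨by rw [hk] at hc; omega, N, hNn, hN60, hNs, hNC⟩
  · exfalso; apply h9; rw [hk]; norm_num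
  · exfalso; apply h9; rw [hk]; norm_num

end Cfsg.Agent.H18N.N360a
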