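import Cfsg.Agent.H37.MinNormal
import Cfsg.Agent.S0496
import Cfsg.Agent.S0494
import Cfsg.Agent.AutAlt.Basic
import Cfsg.Agent.H18.PClosed

set_option autoImplicit false
open Cfsg

namespace Cfsg.Agent.H18N.N360a2

open Subgroup Cfsg.Agent.H18.PCl
open scoped Pointwise

universe u

theorem simple_dvd {T : Type u} [Group T] [Finite T] (hs : IsSimpleGroup T) (hT : ¬ IsMulCommutative T)
    (h : Nat.card T ∣ 360) : Nat.card T = 60 ∨ Nat.card T = 360 := by
  haveI := hs
  have h1 := S0496.result hT ((Nat.le_of_dvd (by norm_num) h).trans (by norm_num))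
  rcases h1 with h1 | h1 | h1 | h1 | h1 | h1 <;> rw [h1] at h <;> first | exact Or.inl h1 | exact Or.inr h1 | (norm_num at h)

/-- solvable by order. -/
theorem solvable_Z : ∀ (n : ℕ) (G : Type u) [Group G] [Finite G], Nat.card G = n →
    (∀ (H : Type u) [Group H] [Finite H], IsSimpleGroup H → ¬ IsMulCommutative H → ¬ Nat.card H ∣ n) →
    Group.IsSolvable G := by
  intro n
  induction n using Nat.strong_induction_on with
  | _ n ih =>
    intro G _ _ hn hi
    rcases subsingleton_or_nontrivial G with hG | hG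
    · infer_instance
    · obtain ⟨N, hNn, hNt, hs⟩ := exists_maxNormal G
      have hdN : Nat.card N ∣ n := by rw [← hn]; exact Subgroup.card_subgroup_dvd_card N
      have hdQ : Nat.card (G ⧸ N) ∣ n := by rw [← hn]; exact Subgroup.card_quotient_dvd_card N
      have hlt : Nat.card N < n := by
        rw [← hn]
        exact lt_of_le_of_ne (Subgroup.card_le_card_group N) (fun h => hNt (Subgroup.eq_top_of_card_eq N h))
      have h1 : Group.IsSolvable N := ih _ hlt N rfl (fun H _ _ h1 h2 h3 => hi H h1 h2 (h3.trans hdN))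
      have h2 : IsMulCommutative (G ⧸ N) := by
        by_contra h
        exact hi (G ⧸ N) hs h hdQ
      have h3 : Group.IsSolvable (G ⧸ N) := Group.isSolvable_of_comm (fun a b => h2.is_comm.comm a b)
      refine Group.isSolvable_of_ker_le_range N.subtype (QuotientGroup.mk' N) ?_
      rw [QuotientGroup.ker_mk', Subgroup.range_subtype]

theorem solvable_of_quot {G : Type u} [Group G] (K : Subgroup G) [K.Normal] (h1 : Group.IsSolvable K)
    (h2 : Group.IsSolvable (G ⧸ K)) : Group.IsSolvable G := by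
  refine Group.isSolvable_of_ker_le_range K.subtype (QuotientGroup.mk' K) ?_
  rw [QuotientGroup.ker_mk', Subgroup.range_subtype]

/-- the solvable radical. -/
theorem exists_radical (G : Type u) [Group G] [Finite G] : ∃ R : Subgroup G, ∃ _ : R.Normal, Group.IsSolvable R ∧
    ∀ K : Subgroup (G ⧸ R), K.Normal → Group.IsSolvable K → K = ⊥ := by
  classical
  have hfin : Set.Finite {N : Subgroup G | N.Normal ∧ Group.IsSolvable N} := Set.toFinite _
  obtain ⟨R, hR, hmax⟩ := hfin.exists_maximal ⟨⊥, inferInstance, inferInstance⟩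
  have hRn : R.Normal := hR.1
  refine ⟨R, hRn, hR.2, fun K hK hKs => ?_⟩
  set L := K.comap (QuotientGroup.mk' R) with hL
  have hRL : R ≤ L := by
    intro x hx
    rw [hL, Subgroup.mem_comap, QuotientGroup.mk'_apply, (QuotientGroup.eq_one_iff x).2 hx]
    exact one_mem _
  have hLs : Group.IsSolvable L := by
    let f : L →* K := ((QuotientGroup.mk' R).comp L.subtype).codRestrict K (fun x => x.2)
    have hker : f.ker ≤ (Subgroup.inclusion hRL).range := by
      intro x hx
      rw [MonoidHom.mem_ker] at hx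
      have h1 : (QuotientGroup.mk' R) (x : G) = 1 := congrArg Subtype.val hx
      rw [QuotientGroup.mk'_apply, QuotientGroup.eq_one_iff] at h1
      exact ⟨⟨x, h1⟩, rfl⟩
    haveI := hR.2
    haveI := hKs
    exact Group.isSolvable_of_ker_le_range (Subgroup.inclusion hRL) f hker
  have h2 : L ≤ R := hmax ⟨hK.comap _, hLs⟩ hRL
  rw [← Subgroup.map_comap_eq_self_of_surjective (QuotientGroup.mk'_surjective R) K, Subgroup.map_eq_bot_iff,
    QuotientGroup.ker_mk']
  exact h2


theorem core {H : Type u} [Group H] [Finite H] [Nontrivial H] (hd : Nat.card H ∣ 360)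
    (hrad : ∀ K : Subgroup H, K.Normal → Group.IsSolvable K → K = ⊥) :
    ∃ M : Subgroup H, M.Normal ∧ IsSimpleGroup M ∧ ¬ IsMulCommutative M ∧ (Nat.card M = 60 ∨ Nat.card M = 360) ∧
      centralizer (M : Set H) = ⊥ := by
  obtain ⟨M, hMn, -, hM1, hmin⟩ := Cfsg.Agent.Solv.exists_minimal_normal (⊤ : Subgroup H) inferInstance top_ne_bot
  obtain ⟨T, m, hTM, -, hTs, hm, ⟨e⟩⟩ := Cfsg.Agent.H37.minNormal_structure M hMn hM1 hmin
  have hMd : Nat.card M ∣ 360 := (Subgroup.card_subgroup_dvd_card M).trans hd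
  have hTna : ¬ IsMulCommutative T := by
    intro h
    apply hM1
    apply hrad M hMn
    refine Group.isSolvable_of_comm (fun a b => ?_)
    apply e.injective
    rw [map_mul, map_mul]
    funext i
    exact h.is_comm.comm _ _
  have hTd : Nat.card T ∣ Nat.card M := Subgroup.card_dvd_of_le hTM
  have hT := simple_dvd hTs hTna (hTd.trans hMd)
  have hcard : Nat.card M = Nat.card T ^ m := by
    rw [Nat.card_congr e.toEquiv, Nat.card_fun, Nat.card_fin]
  have hm1 : m = 1 := by
    by_contra h
    have h2 : Nat.card T ^ 2 ∣ 360 := by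
      refine (pow_dvd_pow _ (show 2 ≤ m by omega)).trans ?_
      rw [← hcard]; exact hMd
    rcases hT with h3 | h3 <;> rw [h3] at h2 <;> norm_num at h2
  have hTeq : T = M := eq_of_le_of_card_ge hTM (by rw [hcard, hm1, pow_one])
  subst hTeq
  refine ⟨T, hMn, hTs, hTna, hT, ?_⟩
  have hdisj : centralizer (T : Set H) ⊓ T = ⊥ := by
    apply hrad _ inferInstance
    refine Group.isSolvable_of_comm (fun a b => Subtype.ext ?_)
    exact (mem_centralizer_iff.1 b.2.1 a a.2.2)
  apply hrad _ inferInstance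
  refine solvable_Z _ _ rfl (fun K _ _ hK1 hK2 hK3 => ?_)
  have h4 := Cfsg.Agent.Solv.mul_card_sup_of_normal (centralizer (T : Set H)) T
  rw [hdisj, Subgroup.card_bot, mul_one] at h4
  have h5 : Nat.card (centralizer (T : Set H)) * Nat.card T ∣ 360 := by
    rw [← h4]; exact (Subgroup.card_subgroup_dvd_card _).trans hd
  have h6 := simple_dvd hK1 hK2 (hK3.trans ((Dvd.intro _ rfl).trans h5))
  have h7 : 60 ∣ Nat.card (centralizer (T : Set H)) := by
    rcases h6 with h6 | h6 <;> rw [h6] at hK3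
    · exact hK3
    · exact (show 60 ∣ 360 by norm_num).trans hK3
  have h8 : 60 ∣ Nat.card T := by
    rcases hT with h6 | h6 <;> rw [h6]; norm_num
  have h9 := (mul_dvd_mul h7 h8).trans h5
  norm_num at h9

theorem card_le {H : Type u} [Group H] [Finite H] (M : Subgroup H) [M.Normal] [IsSimpleGroup M]
    (hM : Nat.card M = 60) (hC : centralizer (M : Set H) = ⊥) : Nat.card H ∣ 120 := by
  obtain ⟨e⟩ := S0494.result hM
  have h1 : Nat.card (MulAut M) = 120 := by
    rw [Nat.card_congr (MulAut.congr e).toEquiv]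
    have h2 := Nat.card_eq_of_bijective _ (Cfsg.Agent.AutAlt.conjNormal_bijective (α := Fin 5) (by simp) (by simp))
    rw [← h2, Nat.card_perm, Nat.card_fin]
    rfl
  rw [← h1]
  refine Subgroup.card_dvd_of_injective (MulAut.conjNormal : H →* MulAut M) ?_
  rw [injective_iff_map_eq_one]
  intro h hh
  have h3 : h ∈ centralizer (M : Set H) := by
    rw [mem_centralizer_iff]
    intro x hx
    have h4 : ((MulAut.conjNormal h ⟨x, hx⟩ : M) : H) = x := by rw [hh]; rfl
    rw [MulAut.conjNormal_apply] at h4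
    rw [mul_inv_eq_iff_eq_mul] at h4
    exact h4.symm
  rw [hC] at h3
  exact Subgroup.mem_bot.1 h3

theorem n360a {G : Type u} [Group G] [Finite G] (hcard : Nat.card G = 360) (hns : ¬ IsSimpleGroup G)
    (hsol : ¬ Group.IsSolvable G) : ∃ R : Subgroup G, ∃ _ : R.Normal,
      (Nat.card R = 6 ∧ IsSimpleGroup (G ⧸ R) ∧ ¬ IsMulCommutative (G ⧸ R)) ∨
      (Nat.card R = 3 ∧ ∃ N : Subgroup (G ⧸ R), N.Normal ∧ Nat.card N = 60 ∧ IsSimpleGroup N ∧
        Subgroup.centralizer (N : Set (G ⧸ R)) = ⊥) := by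
  haveI : Nontrivial G := by rw [← Finite.one_lt_card_iff_nontrivial, hcard]; norm_num
  obtain ⟨R, hRn, hRs, hrad⟩ := exists_radical G
  have hc : Nat.card (G ⧸ R) * Nat.card R = 360 := by
    rw [← hcard]; exact (Subgroup.card_eq_card_quotient_mul_card_subgroup R).symm
  have hnt : Nontrivial (G ⧸ R) := by
    by_contra h
    rw [not_nontrivial_iff_subsingleton] at h
    exact hsol (solvable_of_quot R hRs inferInstance)
  obtain ⟨M, hMn, hMs, hMna, hM, hC⟩ := core (H := G ⧸ R) (Dvd.intro _ hc) hrad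
  have htop : Nat.card M = Nat.card (G ⧸ R) → IsSimpleGroup (G ⧸ R) ∧ ¬ IsMulCommutative (G ⧸ R) := by
    intro h
    have h1 : M = ⊤ := Subgroup.eq_top_of_card_eq M h
    subst h1
    refine ⟨IsSimpleGroup.isSimpleGroup_of_surjective (Subgroup.topEquiv (G := G ⧸ R)).toMonoidHom
      (Subgroup.topEquiv (G := G ⧸ R)).surjective, fun h2 => hMna ?_⟩
    exact ⟨⟨fun a b => Subtype.ext (h2.is_comm.comm _ _)⟩⟩
  have hMd : Nat.card M ∣ Nat.card (G ⧸ R) := Subgroup.card_subgroup_dvd_card M
  rcases hM with hM | hM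
  · have hd := card_le M hM hC
    rw [hM] at hMd
    obtain ⟨k, hk⟩ := hMd
    have hk2 : k = 1 ∨ k = 2 := by
      rw [hk] at hd
      have : k ∣ 2 := Nat.dvd_of_mul_dvd_mul_left (show 0 < 60 by norm_num) (by simpa using hd)
      exact (Nat.dvd_prime Nat.prime_two).1 this
    rcases hk2 with rfl | rfl
    · refine ⟨R, hRn, Or.inl ⟨?_, htop (by rw [hM, hk])⟩⟩
      rw [hk] at hc; omega
    · refine ⟨R, hRn, Or.inr ⟨?_, M, hMn, hM, hMs, hC⟩⟩
      rw [hk] at hc; omega
  · exfalso
    have h1 : Nat.card (G ⧸ R) = 360 := by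
      have h2 : Nat.card (G ⧸ R) ∣ 360 := Dvd.intro _ hc
      rw [hM] at hMd
      exact Nat.dvd_antisymm h2 hMd
    have h2 := (htop (by rw [hM, h1])).1
    have h3 : Nat.card R = 1 := by rw [h1] at hc; omega
    have h4 : R = ⊥ := Subgroup.card_eq_one.1 h3
    subst h4
    exact hns (IsSimpleGroup.isSimpleGroup_of_surjective (QuotientGroup.quotientBot (G := G)).toMonoidHom
      (QuotientGroup.quotientBot (G := G)).surjective)

end Cfsg.Agent.H18N.N360a2
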