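import Mathlib
import Cfsg.Agent.H74.Ord5040
import Cfsg.Agent.Char.Linear
import Cfsg.Prelude.Def_DegreeGraph

/-!
# A group of order 120 over a simple group of order 60 has a character degree divisible by six
-/

set_option autoImplicit false

namespace Cfsg.Agent.H18N.N360b

open Cfsg Subgroup
open Cfsg.Agent.BR
open Cfsg.Agent
open Cfsg.Agent.CharBase (oneIrr)
open scoped Pointwise commutatorElement

universe u

section

variable {H : Type u} [Group H] [Finite H]

/-- number of linear characters -/
theorem card_linear_le : Nat.card {χ : IrrCharacter H // (χ : H → ℂ) 1 = 1} ≤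
    (commutator H).index := by
  classical
  have hex : Monoid.exponent (Abelianization H) ≠ 0 := Monoid.exponent_ne_zero_of_finite
  haveI : NeZero (Monoid.exponent (Abelianization H) : ℂ) := ⟨by exact_mod_cast hex⟩
  have h1 : Nat.card (Abelianization H →* ℂˣ) = Nat.card (Abelianization H) :=
    CommGroup.card_monoidHom_of_hasEnoughRootsOfUnity (Abelianization H) ℂ
  haveI : Finite (Abelianization H →* ℂˣ) := by
    apply Nat.finite_of_card_ne_zero
    rw [h1]; exact Nat.card_pos.ne'
  have h2 : Nat.card (Abelianization H) = (commutator H).index := rfl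
  rw [← h2, ← h1]
  refine Nat.card_le_card_of_injective (fun χ => Abelianization.lift
    (Char.linHom (CharBase.irr_isCharacter χ.1) χ.2).toHomUnits) ?_
  intro a b hab
  apply Subtype.ext
  apply Subtype.ext
  funext g
  have h3 := congrArg (fun f => ((f (Abelianization.of g) : ℂˣ) : ℂ)) hab
  simpa using h3

/-- an involution centralizing a Sylow subgroup of order five normalizes all six of them. -/
theorem fix_all [hp : Fact (Nat.Prime 5)] {P : Sylow 5 H} (hP : ∀ P : Sylow 5 H, Sp 5 (P : Subgroup H))
    (h6 : Nat.card (Sylow 5 H) = 6) {t : H} (ht : t ∈ centralizer ((P : Subgroup H) : Set H)) (ht2 : t * t = 1)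
    (Q : Sylow 5 H) : t • Q = Q := by
  classical
  have htP : t • P = P := by
    rw [Sylow.smul_eq_iff_mem_normalizer]
    exact Subgroup.centralizer_le_normalizer _ ht
  by_cases hQ : Q = P
  · rw [hQ]; exact htP
  have key : ∀ y ∈ (P : Subgroup H), y • Q = Q → y = 1 := by
    intro y hy hyQ
    by_contra hy1
    rw [Sylow.smul_eq_iff_mem_normalizer] at hyQ
    have h1 := (hP P).orderOf_eq hy hy1
    have h2 := (hP Q).mem_of_normalizer hyQ h1
    apply hQ
    apply Sylow.ext
    rw [← (hP P).zpowers_eq hy hy1, ← (hP Q).zpowers_eq h2 hy1]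
  have hPfix : ∀ y ∈ (P : Subgroup H), y • P = P := by
    intro y hy
    rw [Sylow.smul_eq_iff_mem_normalizer]
    exact Subgroup.le_normalizer hy
  let f : ↥(P : Subgroup H) → {R : Sylow 5 H // R ≠ P} := fun y => ⟨(y : H) • Q, by
    intro h
    apply hQ
    have h1 : (y : H) • Q = (y : H) • P := h.trans (hPfix _ y.2).symm
    exact smul_left_cancel _ h1⟩
  have hf : Function.Injective f := by
    intro a b hab
    have h1 : (a : H) • Q = (b : H) • Q := congrArg Subtype.val hab
    have h2 : ((b : H)⁻¹ * a) • Q = Q := by rw [mul_smul, h1, inv_smul_smul]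
    have h3 := key _ (mul_mem (inv_mem b.2) a.2) h2
    exact Subtype.ext (inv_mul_eq_one.1 h3).symm
  have hcard : Nat.card {R : Sylow 5 H // R ≠ P} = 5 := by
    have := Fintype.ofFinite (Sylow 5 H)
    rw [Nat.card_eq_fintype_card] at h6 ⊢
    rw [Fintype.card_subtype_compl, h6, Fintype.card_subtype_eq]
  have hbij : Function.Bijective f := by
    have := Fintype.ofFinite ↥(P : Subgroup H)
    have := Fintype.ofFinite {R : Sylow 5 H // R ≠ P}
    rw [Fintype.bijective_iff_injective_and_card]
    refine ⟨hf, ?_⟩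
    rw [← Nat.card_eq_fintype_card, ← Nat.card_eq_fintype_card, hcard, (hP P).card]
  obtain ⟨⟨y, hy⟩, hy2⟩ := hbij.2 ⟨t • Q, by
    intro h
    apply hQ
    have h1 : t • Q = t • P := h.trans htP.symm
    exact smul_left_cancel _ h1⟩
  have hy3 : y • Q = t • Q := congrArg Subtype.val hy2
  have hcomm : t * y = y * t := (mem_centralizer_iff.1 ht y hy).symm
  have h4 : (y * y) • Q = Q := by
    rw [mul_smul, hy3, ← mul_smul, ← hcomm, mul_smul, hy3, ← mul_smul, ht2, one_smul]
  have h5 := key _ (mul_mem hy hy) h4
  have h6 : y = 1 := by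
    by_contra hy1
    have h7 := (hP P).orderOf_eq hy hy1
    have h8 : orderOf y ∣ 2 := by
      rw [orderOf_dvd_iff_pow_eq_one, pow_two]
      exact h5
    rw [h7] at h8
    omega
  rw [← hy3, h6, one_smul]

theorem n360b (hcard : Nat.card H = 120) (N : Subgroup H) [N.Normal] (hN : Nat.card N = 60)
    (hs : IsSimpleGroup N) (hC : Subgroup.centralizer (N : Set H) = ⊥) : ∃ d ∈ Cfsg.charDegrees H, 6 ∣ d := by
  classical
  have hp : Fact (Nat.Prime 5) := ⟨by norm_num⟩
  have hidx : N.index = 2 := by
    have := N.card_mul_index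
    rw [hN, hcard] at this
    omega
  have hsub : ∀ K : Subgroup H, K.Normal → K ⊓ N = ⊥ ∨ N ≤ K := by
    intro K hK
    haveI : (K.subgroupOf N).Normal := hK.subgroupOf N
    rcases (inferInstance : (K.subgroupOf N).Normal).eq_bot_or_eq_top with h | h
    · left
      rw [Subgroup.subgroupOf_eq_bot] at h
      exact h.eq_bot
    · right
      exact Subgroup.subgroupOf_eq_top.1 h
  have hSp : ∀ P : Sylow 5 H, Sp 5 (P : Subgroup H) := by
    intro P
    apply Sp.of_sylow
    have := H17.card_sylow_eq (p := 5) P (k := 1) (m := 24) (by rw [hcard]; rfl) (by norm_num)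
    rw [pow_one] at this
    exact this
  obtain ⟨P⟩ : Nonempty (Sylow 5 H) := inferInstance
  have hP := hSp P
  have hPN : (P : Subgroup H) ≤ N := by
    intro x hx
    have h1 : x ^ 2 ∈ N := Subgroup.sq_mem_of_index_two hidx x
    have h2 : x ^ 5 = 1 := by
      have := pow_card_eq_one' (x := (⟨x, hx⟩ : (P : Subgroup H)))
      rw [hP.card] at this
      exact congrArg Subtype.val this
    have h3 : x = (x ^ 2) ^ 3 := by
      calc x = x ^ 5 * x := by rw [h2, one_mul]
        _ = (x ^ 2) ^ 3 := by group
    rw [h3]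
    exact pow_mem h1 3
  have hn6 : Nat.card (Sylow 5 H) = 6 := by
    have h1 := H17.card_sylow_mem (p := 5) (G := H) (k := 1) (m := 24) (by rw [hcard]; rfl) (by norm_num)
    rw [show (Nat.divisors 24).filter (· % 5 = 1) = {1, 6} by decide +kernel] at h1
    simp only [Finset.mem_insert, Finset.mem_singleton] at h1
    rcases h1 with h1 | h1
    · exfalso
      have h2 := Sylow.card_eq_index_normalizer P
      rw [h1] at h2
      have h3 : (P : Subgroup H).Normal := Subgroup.normalizer_eq_top_iff.1 (Subgroup.index_eq_one.1 h2.symm)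
      rcases hsub _ h3 with h4 | h4
      · rw [inf_eq_left.2 hPN] at h4
        have h5 := hP.card
        rw [h4, Subgroup.card_bot] at h5
        omega
      · have h5 := Subgroup.card_dvd_of_le h4
        rw [hN, hP.card] at h5
        omega
    · exact h1
  have hNidx : (normalizer ((P : Subgroup H) : Set H)).index = 6 := by
    rw [← hn6]
    exact (Sylow.card_eq_index_normalizer P).symm
  have hNcard : Nat.card (normalizer ((P : Subgroup H) : Set H)) = 20 := by
    have := (normalizer ((P : Subgroup H) : Set H)).card_mul_index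
    rw [hNidx, hcard] at this
    omega
  have hCN : centralizer ((P : Subgroup H) : Set H) ≤ normalizer ((P : Subgroup H) : Set H) :=
    Subgroup.centralizer_le_normalizer _
  have hPC : (P : Subgroup H) ≤ centralizer ((P : Subgroup H) : Set H) := by
    have h1 : IsCyclic (P : Subgroup H) := isCyclic_of_prime_card hP.card
    have h2 : IsMulCommutative (P : Subgroup H) := inferInstance
    exact Subgroup.le_centralizer _
  have hind : ind (P : Subgroup H) * Nat.card (centralizer ((P : Subgroup H) : Set H)) = 20 := by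
    unfold ind
    have h1 := Subgroup.card_mul_index ((centralizer ((P : Subgroup H) : Set H)).subgroupOf
      (normalizer ((P : Subgroup H) : Set H)))
    rw [Nat.card_congr (Subgroup.subgroupOfEquivOfLe hCN).toEquiv] at h1
    rw [← hNcard, mul_comm, ← h1]
    rfl
  have hCc : Nat.card (centralizer ((P : Subgroup H) : Set H)) = 5 := by
    obtain ⟨v, hv⟩ := Subgroup.card_dvd_of_le hPC
    rw [hP.card] at hv
    rw [hv] at hind
    have h1 : ind (P : Subgroup H) * v = 4 := by
      have : 5 * (ind (P : Subgroup H) * v) = 5 * 4 := by linarith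
      omega
    have h2 : v ∣ 4 := Dvd.intro_left _ h1
    by_contra hne
    have h3 : 2 ∣ Nat.card (centralizer ((P : Subgroup H) : Set H)) := by
      rw [hv]
      apply Dvd.dvd.mul_left
      have h4 : v ≤ 4 := Nat.le_of_dvd (by norm_num) h2
      interval_cases v <;> omega
    obtain ⟨t, ht, ht2⟩ := H74.CInv.exists_inv h3
    have htt : t * t = 1 := by
      rw [← pow_two, ← ht2]
      exact pow_orderOf_eq_one t
    have h5 := fix_all (P := P) hSp hn6 ht htt
    have h6 : t ∈ (MulAction.toPermHom H (Sylow 5 H)).ker := by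
      rw [MonoidHom.mem_ker]
      ext Q
      rw [MulAction.toPermHom_apply, MulAction.toPerm_apply, h5 Q]
      rfl
    rcases hsub _ (MonoidHom.normal_ker (MulAction.toPermHom H (Sylow 5 H))) with h7 | h7
    · have h8 : t ∈ centralizer (N : Set H) := by
        rw [mem_centralizer_iff]
        intro n hn
        exact Subgroup.commute_of_normal_of_disjoint N _ inferInstance (MonoidHom.normal_ker _)
          (disjoint_iff.2 (by rw [inf_comm]; exact h7)) n t hn h6
      rw [hC, mem_bot] at h8
      rw [h8, orderOf_one] at ht2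
      omega
    · have h8 : N ≤ normalizer ((P : Subgroup H) : Set H) := by
        intro n hn
        have h9 := h7 hn
        rw [MonoidHom.mem_ker] at h9
        have h10 : n • P = P := by
          have := congrArg (fun σ => σ P) h9
          simpa using this
        rwa [Sylow.smul_eq_iff_mem_normalizer] at h10
      have h9 := Subgroup.card_dvd_of_le h8
      rw [hN, hNcard] at h9
      omega
  have hi4 : ind (P : Subgroup H) = 4 := by
    rw [hCc] at hind
    omega
  by_contra hcon
  push Not at hcon
  have hdeg : ∀ χ : IrrCharacter H, ¬ 6 ∣ dg χ := fun χ => hcon _ ⟨χ, rfl⟩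
  obtain ⟨B⟩ := CycG.nonempty_data hP
  have hd : ∀ d ∈ Nat.divisors 24, ¬ 6 ∣ d → (d % 5 = 1 → d = 1) ∧ (d % 5 = 4 → d = 4) := by decide +kernel
  have hX : ∀ χ ∈ B.X, (dg χ = 1 ∧ B.δ χ * (dg χ : ℤ) = 1) ∨ (dg χ ≠ 1 ∧ B.δ χ * (dg χ : ℤ) = -4) := by
    intro χ hχ
    have h1 := B.dvd_X hP hχ
    rw [hi4, hNidx] at h1
    have h2 := B.congr_X hP hχ
    have h3 := hd _ (Nat.mem_divisors.2 ⟨h1, by norm_num⟩) (hdeg χ)
    rcases B.sgn χ hχ with h4 | h4
    · left
      rw [h4] at h2 ⊢
      have h5 := h3.1 (by omega)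
      rw [h5]
      norm_num
    · right
      rw [h4] at h2 ⊢
      have h5 := h3.2 (by omega)
      rw [h5]
      norm_num
  obtain ⟨ψ, hψ⟩ := B.Y_nonempty (by norm_num)
  have hY : B.δ₀ * (dg ψ : ℤ) = 1 ∨ B.δ₀ * (dg ψ : ℤ) = -4 := by
    have h1 := B.dvd_Y hP hψ
    rw [hi4, hNidx] at h1
    have h2 := B.congr_Y hP hψ
    rw [hi4] at h2
    have h3 := hd _ (Nat.mem_divisors.2 ⟨h1, by norm_num⟩) (hdeg ψ)
    rcases B.sgn₀ with h4 | h4
    · left
      rw [h4] at h2 ⊢
      have h5 := h3.1 (by push_cast at h2; omega)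
      rw [h5]
      norm_num
    · right
      rw [h4] at h2 ⊢
      have h5 := h3.2 (by push_cast at h2; omega)
      rw [h5]
      norm_num
  have hsum := B.degEq hψ
  have hA : ∑ χ ∈ B.X, B.δ χ * (dg χ : ℤ) = 5 * ((B.X.filter (fun χ => dg χ = 1)).card : ℤ) - 16 := by
    have h1 : ∀ χ ∈ B.X, B.δ χ * (dg χ : ℤ) = (if dg χ = 1 then 5 else 0) - 4 := by
      intro χ hχ
      rcases hX χ hχ with ⟨h2, h3⟩ | ⟨h2, h3⟩
      · rw [h3, if_pos h2]; norm_num
      · rw [h3, if_neg h2]; norm_num
    rw [Finset.sum_congr rfl h1, Finset.sum_sub_distrib, Finset.sum_const, B.cardX, hi4, ← Finset.sum_filter,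
      Finset.sum_const, nsmul_eq_mul, nsmul_eq_mul]
    push_cast
    ring
  rw [hA] at hsum
  have h3 : 3 ≤ (B.X.filter (fun χ => dg χ = 1)).card := by
    rcases hY with h1 | h1
    · rw [h1] at hsum; omega
    · rw [h1] at hsum; omega
  have hlin := card_linear_le (H := H)
  have hNc : N ≤ commutator H := by
    rcases hsub (commutator H) inferInstance with h1 | h1
    · exfalso
      have h2 : N ≤ centralizer (N : Set H) := by
        intro a ha
        rw [mem_centralizer_iff]
        intro b hb
        have h4 : ⁅b, a⁆ ∈ commutator H ⊓ N := by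
          refine mem_inf.2 ⟨commutator_mem_commutator (mem_top _) (mem_top _), ?_⟩
          rw [commutatorElement_def]
          exact mul_mem (mul_mem (mul_mem hb ha) (inv_mem hb)) (inv_mem ha)
        rw [h1, mem_bot, commutatorElement_eq_one_iff_mul_comm] at h4
        exact h4
      rw [hC, le_bot_iff] at h2
      rw [h2, Subgroup.card_bot] at hN
      omega
    · exact h1
  have h5 : (commutator H).index ≤ 2 := by
    have := Subgroup.index_dvd_of_le hNc
    rw [hidx] at this
    exact Nat.le_of_dvd (by norm_num) this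
  have h6 : (B.X.filter (fun χ => dg χ = 1)).card ≤ Nat.card {χ : IrrCharacter H // (χ : H → ℂ) 1 = 1} := by
    rw [← Fintype.card_coe, ← Nat.card_eq_fintype_card]
    haveI : Finite {χ : IrrCharacter H // (χ : H → ℂ) 1 = 1} := Subtype.finite
    refine Nat.card_le_card_of_injective (fun χ => ⟨χ.1, ?_⟩) ?_
    · have h7 := (Finset.mem_filter.1 χ.2).2
      rw [dg_eq, h7]
      norm_num
    · intro a b hab
      exact Subtype.ext (congrArg (fun x => x.1) hab)
  omega

end

end Cfsg.Agent.H18N.N360b
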