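import Cfsg.Agent.H18.PClosed
import Cfsg.Agent.H34.PDeg2
import Cfsg.Agent.H75.Tools
import Cfsg.Agent.Char.Clifford
import Cfsg.Agent.S0495
import Cfsg.Agent.S0496

/-!
# S3668, piece N504ns (owner: helper41)
-/

set_option autoImplicit false

namespace Cfsg.Agent.H18.N504

open Cfsg Cfsg.Agent.CharBase Cfsg.Agent.Char Cfsg.Agent.H75

universe u

/-- `PSL₂(7)` has an irreducible character of degree 6. -/
theorem six_mem {H : Type u} [Group H] [Finite H] [IsSimpleGroup H] (h : Nat.card H = 168) :
    6 ∈ charDegrees H := by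
  have h7 : Fact (Nat.Prime 7) := ⟨by norm_num⟩
  have hc : Fintype.card (ZMod 7) = 7 := ZMod.card 7
  have e := S0495.result (G := H) h (F := ZMod 7) hc
  obtain ⟨k, ⟨D⟩⟩ := H34.Deg.exists_oddData (ZMod 7) (by rw [hc]; decide)
  have hk := D.hk
  rw [hc] at hk
  obtain ⟨-, h2⟩ := H34.Deg.graph_data_group (S := H) (Or.inl e) (H34.Deg.graph_data_odd D (by omega))
  have h3 := h2 6 (Or.inr (Or.inr (by rw [hc])))
  exact h3

/-- a nonsolvable group has a non-abelian simple section -/
theorem exists_simple : ∀ (n : ℕ) (M : Type u) [Group M] [Finite M], Nat.card M = n → ¬ Group.IsSolvable M →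
    ∃ (H : Type u) (_ : Group H) (_ : Finite H), IsSimpleGroup H ∧ ¬ IsMulCommutative H ∧
      Nat.card H ∣ n ∧ (Nat.card H = n → IsSimpleGroup M) := by
  intro n
  induction n using Nat.strong_induction_on with
  | _ n ih =>
    intro M _ _ hM hns
    have hnt : Nontrivial M := by
      by_contra hcon
      rw [not_nontrivial_iff_subsingleton] at hcon
      exact hns inferInstance
    obtain ⟨K, hKn, hKt, hKs⟩ := H18.PCl.exists_maxNormal M
    have hc : Nat.card M = Nat.card (M ⧸ K) * Nat.card K := Subgroup.card_eq_card_quotient_mul_card_subgroup K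
    have hq1 : 1 < Nat.card (M ⧸ K) := by
      rw [Finite.one_lt_card_iff_nontrivial]; exact QuotientGroup.nontrivial_iff.2 hKt
    have hK0 : 0 < Nat.card K := Nat.card_pos
    by_cases hab : IsMulCommutative (M ⧸ K)
    · have hKns : ¬ Group.IsSolvable K := by
        intro hKsol
        apply hns
        have h1 : Group.IsSolvable (M ⧸ K) := Group.isSolvable_of_comm (fun a b => hab.is_comm.comm a b)
        exact Group.isSolvable_of_ker_le_range K.subtype (QuotientGroup.mk' K) (by simp)
      have hlt : Nat.card K < n := by rw [← hM, hc]; nlinarith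
      obtain ⟨H, i1, i2, h1, h2, h3, -⟩ := ih _ hlt K rfl hKns
      refine ⟨H, i1, i2, h1, h2, ?_, ?_⟩
      · rw [← hM, hc]; exact h3.mul_left _
      · intro h4
        have := Nat.le_of_dvd hK0 h3
        omega
    · refine ⟨M ⧸ K, inferInstance, inferInstance, hKs, hab, ?_, ?_⟩
      · rw [← hM, hc]; exact dvd_mul_right _ _
      · intro h4
        have h5 : Nat.card K = 1 := by
          rw [← hM, hc] at h4
          nlinarith
        have h6 : K = ⊥ := Subgroup.card_eq_one.1 h5
        subst h6
        exact (QuotientGroup.quotientBot (G := M)).symm.isSimpleGroup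

/-- degrees over a character of a normal subgroup -/
theorem exists_dvd {G : Type u} [Group G] [Finite G] (N : Subgroup G) [N.Normal] {d : ℕ} (hd : d ∈ charDegrees N) :
    ∃ e ∈ charDegrees G, d ∣ e := by
  classical
  have := Fintype.ofFinite G
  have := Fintype.ofFinite N
  obtain ⟨θ, rfl⟩ := hd
  obtain ⟨χ, hχ, hne⟩ := exists_over N θ.2
  have h1 := clifford_degree N hχ θ.2 hne
  obtain ⟨e, he⟩ := classInner_natCast (isCharacter_restrict (isCharacter_of_isIrr hχ) N) (irr_isCharacter θ)
  have hχ1 : χ 1 = (deg (⟨χ, hχ⟩ : IrrCharacter G) : ℂ) := deg_spec (⟨χ, hχ⟩ : IrrCharacter G)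
  rw [he, deg_spec, hχ1] at h1
  refine ⟨_, ⟨⟨χ, hχ⟩, rfl⟩, ?_⟩
  rw [charDegree_eq_deg, charDegree_eq_deg]
  refine ⟨(inertia N (θ : N → ℂ)).index * e, ?_⟩
  have h2 : ((deg (⟨χ, hχ⟩ : IrrCharacter G) : ℕ) : ℂ) =
      ((deg θ * ((inertia N (θ : N → ℂ)).index * e) : ℕ) : ℂ) := by
    rw [h1]; push_cast; ring
  exact_mod_cast h2

theorem n504ns {G : Type*} [Group G] [Finite G] (hcard : Nat.card G = 504) (hns : ¬ IsSimpleGroup G)
    (hsol : ¬ Group.IsSolvable G) (h6 : ∀ d ∈ Cfsg.charDegrees G, ¬ 6 ∣ d) : False := by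
  have hnt : Nontrivial G := by
    rw [← Finite.one_lt_card_iff_nontrivial, hcard]; norm_num
  obtain ⟨K, hKn, hKt, hKs⟩ := H18.PCl.exists_maxNormal G
  have hc : Nat.card G = Nat.card (G ⧸ K) * Nat.card K := Subgroup.card_eq_card_quotient_mul_card_subgroup K
  by_cases hab : IsMulCommutative (G ⧸ K)
  · have hKns : ¬ Group.IsSolvable K := by
      intro hKsol
      apply hsol
      have h1 : Group.IsSolvable (G ⧸ K) := Group.isSolvable_of_comm (fun a b => hab.is_comm.comm a b)
      exact Group.isSolvable_of_ker_le_range K.subtype (QuotientGroup.mk' K) (by simp)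
    have hq1 : 1 < Nat.card (G ⧸ K) := by
      rw [Finite.one_lt_card_iff_nontrivial]; exact QuotientGroup.nontrivial_iff.2 hKt
    have hK0 : 0 < Nat.card K := Nat.card_pos
    obtain ⟨H, i1, i2, h1, h2, h3, h4⟩ := exists_simple _ K rfl hKns
    have h5 : Nat.card H ∣ 504 := by rw [← hcard, hc]; exact h3.mul_left _
    have hKlt : Nat.card K < 504 := by rw [← hcard, hc]; nlinarith
    have hHK : Nat.card H ≤ Nat.card K := Nat.le_of_dvd hK0 h3
    have h6' := S0496.result (G := H) h2 (by omega)
    have hH : Nat.card H = 168 := by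
      rcases h6' with h | h | h | h | h | h
      · rw [h] at h5; omega
      · exact h
      · rw [h] at h5; omega
      · omega
      · omega
      · omega
    have hK168 : Nat.card K = 168 := by
      obtain ⟨m, hm⟩ := h3
      rw [hH] at hm
      have hm2 : 504 = Nat.card (G ⧸ K) * (168 * m) := by rw [← hm, ← hc, hcard]
      have hm3 : m ≤ 2 := by
        by_contra hcon
        push Not at hcon
        nlinarith
      interval_cases m
      · omega
      · omega
      · omega
    have hKsimple : IsSimpleGroup K := h4 (by rw [hH, hK168])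
    obtain ⟨e, he, h7⟩ := exists_dvd K (six_mem hK168)
    exact h6 e he h7
  · have h5 : Nat.card (G ⧸ K) ∣ 504 := by rw [← hcard, hc]; exact dvd_mul_right _ _
    have h6' := S0496.result (G := G ⧸ K) hab (by
      have := Nat.le_of_dvd (by norm_num) h5
      omega)
    have hle := Nat.le_of_dvd (by norm_num) h5
    have hH : Nat.card (G ⧸ K) = 168 ∨ Nat.card (G ⧸ K) = 504 := by
      rcases h6' with h | h | h | h | h | h
      · rw [h] at h5; omega
      · exact Or.inl h
      · rw [h] at h5; omega
      · exact Or.inr h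
      · omega
      · omega
    rcases hH with hH | hH
    · have h7 := six_mem hH
      rw [H34.Deg.mem_charDegrees_quot] at h7
      obtain ⟨χ, -, h8⟩ := h7
      exact h6 6 ⟨χ, h8⟩ (dvd_refl 6)
    · have h9 : Nat.card K = 1 := by
        rw [hcard, hH] at hc
        omega
      have h10 : K = ⊥ := Subgroup.card_eq_one.1 h9
      subst h10
      exact hns (QuotientGroup.quotientBot (G := G)).symm.isSimpleGroup

end Cfsg.Agent.H18.N504
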